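import Cfsg.Agent.TwistTensor.Basic

/-!
Element orders of the split extension of the twisted tensor module.
-/

set_option autoImplicit false

namespace CfsgLib.TwistTensor

open Matrix CfsgLib.SL2

variable {F : Type} [Field F] [CharP F 3]

/-- The image group. -/
noncomputable def act2 : ↥(aut (F := F)).range →* MulAut (Mod F) := (aut (F := F)).range.subtype

/-- The extension. -/
abbrev Ext (F : Type) [Field F] [CharP F 3] := Mod F ⋊[act2 (F := F)] ↥(aut (F := F)).range

theorem inl_pow_three (w : Mod F) : w ^ 3 = 1 := by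
  have h3 : ((3 : ℕ) : F) = 0 := CharP.cast_eq_zero F 3
  show Multiplicative.ofAdd (3 • w.toAdd) = 1
  have : 3 • w.toAdd = 0 := by
    rw [← Nat.cast_smul_eq_nsmul F, h3, zero_smul]
  rw [this]; rfl

theorem pow_left_fixed (x : Ext F) (k : ℕ) (hk : x.right ^ k = 1) :
    (x.right : MulAut (Mod F)) (x ^ k).left = (x ^ k).left := by
  have hr : (x ^ k).right = 1 := by
    rw [show (x ^ k).right = SemidirectProduct.rightHom (x ^ k) from rfl, map_pow]; exact hk
  have h := congrArg SemidirectProduct.left (show x * x ^ k = x ^ k * x from (Commute.self_pow x k).eq)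
  simp only [SemidirectProduct.mul_left, hr, map_one, MulAut.one_apply] at h
  exact mul_left_cancel (h.trans (mul_comm _ _))

theorem pow_pow_three (x : Ext F) (k : ℕ) (hk : x.right ^ k = 1) : x ^ (k * 3) = 1 := by
  have hr : (x ^ k).right = 1 := by
    rw [show (x ^ k).right = SemidirectProduct.rightHom (x ^ k) from rfl, map_pow]; exact hk
  have hx : x ^ k = SemidirectProduct.inl (x ^ k).left := by
    apply SemidirectProduct.ext <;> simp [hr]
  rw [pow_mul, hx, ← map_pow, inl_pow_three, map_one]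

/-- If some power of the action has no fixed point then the order is that of the action. -/
theorem pow_eq_one_of_free (x : Ext F) (k i : ℕ) (hk : x.right ^ k = 1)
    (hfree : ∀ w : Mod F, (x.right : MulAut (Mod F)) ^ i • w = w → w = 1) : x ^ k = 1 := by
  have hr : (x ^ k).right = 1 := by
    rw [show (x ^ k).right = SemidirectProduct.rightHom (x ^ k) from rfl, map_pow]; exact hk
  have hf := pow_left_fixed x k hk
  have : ∀ j : ℕ, (x.right : MulAut (Mod F)) ^ j • (x ^ k).left = (x ^ k).left := by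
    intro j
    induction j with
    | zero => simp
    | succ j ih => rw [pow_succ, mul_smul]; rw [show (x.right : MulAut (Mod F)) • (x ^ k).left = (x ^ k).left from hf, ih]
  apply SemidirectProduct.ext
  · rw [hfree _ (this i)]; rfl
  · exact hr

theorem fixed_sq {g : SpecialLinearGroup (Fin 2) F} (e : ℤˣ) {w : Mod F}
    (h : aut (g, e) ^ 2 • w = w) (hw : w ≠ 1) : proj g ^ 4 = 1 ∨ proj g ^ 6 = 1 := by
  rw [← map_pow, Prod.pow_mk, Int.units_sq] at h
  have h' : act (g ^ 2) 1 w.toAdd = w.toAdd := by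
    have := congrArg Multiplicative.toAdd h
    simpa [MulAut.smul_def, aut] using this
  rcases proj_pow_six (tr_cube_of_fixed h' (fun h0 => hw (by simpa using congrArg Multiplicative.ofAdd h0))) with h2 | h2 <;>
    rw [map_pow, ← pow_mul] at h2
  · exact Or.inl h2
  · exact Or.inr h2

theorem neg_free (w : Mod F) (h : aut ((1 : SpecialLinearGroup (Fin 2) F), (-1 : ℤˣ)) • w = w) : w = 1 := by
  have h' : act (1 : SpecialLinearGroup (Fin 2) F) (-1) w.toAdd = w.toAdd := by
    have := congrArg Multiplicative.toAdd h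
    simpa [MulAut.smul_def, aut] using this
  have h2 : (2 : F) • w.toAdd = 0 := by
    simp [act] at h'
    rw [two_smul]
    nth_rw 1 [← h']
    exact neg_add_cancel _
  rw [two_eq_neg_one, neg_one_smul, neg_eq_zero] at h2
  simpa using congrArg Multiplicative.ofAdd h2

theorem exists_cases [Fintype F] {A B : ℕ} (hA : Fintype.card F - 1 = 2 * A) (hA3 : A.Coprime 6)
    (hB : Fintype.card F + 1 = 2 * B) (hB2 : 2 ∣ B) (hB3 : B.Coprime 3) (hB4 : ¬ 4 ∣ B) (x : Ext F) :
    x ^ 6 = 1 ∨ x ^ 9 = 1 ∨ x ^ (2 * A) = 1 ∨ x ^ B = 1 := by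
  obtain ⟨⟨g, e⟩, hge⟩ := MonoidHom.mem_range.1 x.right.2
  have hpow : ∀ k, proj g ^ k = 1 → e ^ k = 1 → x.right ^ k = 1 := fun k h1 h2 =>
    Subtype.ext (by rw [Subgroup.coe_pow, Subgroup.coe_one, ← hge, aut_pow_eq_one_iff]; exact ⟨h1, h2⟩)
  have he2 : ∀ k, 2 ∣ k → e ^ k = 1 := by
    rintro k ⟨c, rfl⟩; rw [pow_mul, Int.units_sq, one_pow]
  have h2F : (2 : F) ≠ 0 := by rw [two_eq_neg_one]; exact neg_ne_zero.2 one_ne_zero
  have hcen : Nat.card (Subgroup.center (SpecialLinearGroup (Fin 2) F)) = 2 := by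
    rw [card_center_eq_gcd, hA]; exact Nat.gcd_eq_left (dvd_mul_right 2 A)
  have small : proj g ^ 2 = 1 → x ^ 6 = 1 := fun h =>
    (pow_pow_three x 2 (hpow 2 h (he2 2 dvd_rfl)) : x ^ (2 * 3) = 1)
  have semis : ∀ k : ℕ, proj g ^ k = 1 → k.Coprime 3 → ¬ 4 ∣ k → x ^ 6 = 1 ∨
      (∀ w : Mod F, (x.right : MulAut (Mod F)) ^ 2 • w = w → w = 1) := by
    intro k hk hk3 hk4
    by_contra hc
    push Not at hc
    obtain ⟨h6, w, hw, hw1⟩ := hc
    rw [← hge] at hw
    refine h6 (small ?_)
    have h2 : orderOf (proj g) ∣ k := orderOf_dvd_of_pow_eq_one hk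
    rw [← orderOf_dvd_iff_pow_eq_one]
    rcases fixed_sq e hw hw1 with h | h
    · obtain ⟨i, hi, hio⟩ := (Nat.dvd_prime_pow Nat.prime_two).1
        (show orderOf (proj g) ∣ 2 ^ 2 from orderOf_dvd_of_pow_eq_one h)
      interval_cases i
      · simp [hio]
      · simp [hio]
      · exact absurd (show 4 ∣ k by rw [hio] at h2; simpa using h2) hk4
    · have h3 : (orderOf (proj g)).Coprime 3 := hk3.coprime_dvd_left h2
      exact h3.dvd_of_dvd_mul_right (show orderOf (proj g) ∣ 2 * 3 from orderOf_dvd_of_pow_eq_one h)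
  rcases type_cases (g := g) with h | ⟨h4, r, hr⟩ | ⟨-, he⟩
  · have h3 := proj_pow_char 3 h
    rcases Int.units_eq_one_or e with rfl | rfl
    · exact Or.inr (Or.inl (pow_pow_three x 3 (hpow 3 h3 (one_pow 3)) : x ^ (3 * 3) = 1))
    · left
      refine pow_eq_one_of_free x 6 3 (hpow 6 (by rw [show 6 = 3 * 2 from rfl, pow_mul, h3, one_pow]) (he2 6 (by norm_num))) ?_
      intro w hw
      refine neg_free w ?_
      have : aut (g, (-1 : ℤˣ)) ^ 3 = aut (1, -1) := by
        rw [← map_pow, Prod.pow_mk]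
        have : aut (g ^ 3, (-1 : ℤˣ) ^ 3) * (aut (1, (-1 : ℤˣ)))⁻¹ = 1 := by
          rw [← map_inv, ← map_mul, aut_eq_one_iff]
          exact ⟨by simpa using h3, (by decide : (-1 : ℤˣ) ^ 3 * (-1)⁻¹ = 1)⟩
        exact mul_inv_eq_one.1 this
      rw [← hge, this] at hw
      exact hw
  · have hk : proj g ^ A = 1 := by
      rw [← orderOf_dvd_iff_pow_eq_one]
      have := orderOf_proj_dvd_of_pow (g := g) (N := Fintype.card F - 1) (dvd_of_center F).1
        (by rw [← Nat.card_eq_fintype_card]; exact pow_split h4 hr)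
      rwa [hcen, hA, Nat.mul_div_cancel_left _ two_pos] at this
    rcases semis A hk (hA3.coprime_dvd_right (by norm_num))
      (fun h => by
        have := Nat.dvd_gcd ((show 2 ∣ 4 by norm_num).trans h) (show 2 ∣ 6 by norm_num)
        rw [hA3] at this; norm_num at this) with h | h
    · exact Or.inl h
    · exact Or.inr (Or.inr (Or.inl (pow_eq_one_of_free x _ 2
        (hpow _ (by rw [mul_comm, pow_mul, hk, one_pow]) (he2 _ (Dvd.intro A rfl))) h)))
  · have hk : proj g ^ B = 1 := by
      rw [← orderOf_dvd_iff_pow_eq_one]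
      have := orderOf_proj_dvd_of_pow (g := g) (N := Fintype.card F + 1) (dvd_of_center F).2
        (by rw [← Nat.card_eq_fintype_card]; exact pow_elliptic he)
      rwa [hcen, hB, Nat.mul_div_cancel_left _ two_pos] at this
    rcases semis B hk hB3 hB4 with h | h
    · exact Or.inl h
    · exact Or.inr (Or.inr (Or.inr (pow_eq_one_of_free x _ 2 (hpow _ hk (he2 _ hB2)) h)))

theorem orderOf_aut {g : SpecialLinearGroup (Fin 2) F} {e : ℤˣ} :
    orderOf (aut (g, e)) = Nat.lcm (orderOf (proj g)) (orderOf e) := by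
  rw [← Prod.orderOf_mk, orderOf_eq_orderOf_iff]
  intro n
  rw [aut_pow_eq_one_iff, Prod.pow_mk, Prod.mk_eq_one]

theorem mem_range_six : (6 : ℕ) ∈ Set.range (orderOf : Ext F → ℕ) := by
  refine ⟨SemidirectProduct.inr ⟨aut (upperU 1, -1), MonoidHom.mem_range.2 ⟨_, rfl⟩⟩, ?_⟩
  rw [orderOf_injective _ SemidirectProduct.inr_injective, Subgroup.orderOf_mk, orderOf_aut,
    orderOf_proj_upperU_one 3, show orderOf (-1 : ℤˣ) = 2 from orderOf_eq_prime (by decide) (by decide)]
  decide

theorem mem_range_nine : (9 : ℕ) ∈ Set.range (orderOf : Ext F → ℕ) := by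
  set a : ↥(aut (F := F)).range := ⟨aut (upperU 1, 1), MonoidHom.mem_range.2 ⟨_, rfl⟩⟩
  set v : Mod F := Multiplicative.ofAdd !![0, 0; 0, 1]
  set x : Ext F := ⟨v, a⟩
  refine ⟨x, orderOf_eq_prime_pow (p := 3) (n := 1) ?_ ?_⟩
  · intro h
    have h3 : (x ^ 3).left = 1 := by
      rw [show (3 : ℕ) ^ 1 = 3 from rfl] at h; rw [h]; rfl
    rw [pow_succ, pow_two, SemidirectProduct.mul_left, SemidirectProduct.mul_left,
      SemidirectProduct.mul_right] at h3
    simp only [x, a, v, act2, map_mul, Subgroup.coe_subtype, MulAut.mul_apply, aut_apply,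
      ← ofAdd_add, ofAdd_eq_one] at h3
    have htw : tw F (upperU 1) = upperU 1 := by
      apply ext2 <;> simp [tw, frobenius_def]
    have hu : ∀ a b c d : F, act (upperU 1) 1 !![a, b; c, d] = !![a + b + c + d, b + d; c + d, d] := by
      intro a b c d
      rw [act, htw]
      ext i j; fin_cases i <;> fin_cases j <;> simp [Matrix.mul_apply, Matrix.vecMul, dotProduct, Fin.sum_univ_two] <;> ring
    rw [hu, hu] at h3
    have h4 := congrFun (congrFun h3 0) 0
    simp at h4
    have h5 : (2 : F) = -1 := two_eq_neg_one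
    apply (one_ne_zero : (1 : F) ≠ 0)
    linear_combination 2 * h5 - h4
  · refine pow_pow_three x 3 (Subtype.ext ?_)
    rw [Subgroup.coe_pow, Subgroup.coe_one]
    exact aut_pow_eq_one_iff.2 ⟨proj_pow_char 3 (Or.inl (tr_upperU 1)), one_pow 3⟩

end CfsgLib.TwistTensor
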