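import Cfsg.Agent.SL2.PSLData

/-!
The module `N ⊗ N^(3)` for `SL₂(3^a)` extended by a sign, and element orders of the split extension.
-/

set_option autoImplicit false

namespace CfsgLib.TwistTensor

open Matrix CfsgLib.SL2

variable (F : Type) [Field F] [CharP F 3]

/-- Frobenius twist on `SL₂`. -/
noncomputable def tw : SpecialLinearGroup (Fin 2) F →* SpecialLinearGroup (Fin 2) F :=
  SpecialLinearGroup.map (frobenius F 3)

variable {F}

theorem tr_tw (g : SpecialLinearGroup (Fin 2) F) : tr (tw F g) = tr g ^ 3 := by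
  simp [tr, tw, frobenius_def, add_pow_char]

/-- The action. -/
noncomputable def act (g : SpecialLinearGroup (Fin 2) F) (e : ℤˣ) (M : Matrix (Fin 2) (Fin 2) F) :
    Matrix (Fin 2) (Fin 2) F :=
  ((e : ℤ) : F) • (g.1 * M * (tw F g).1.transpose)

theorem act_one (M : Matrix (Fin 2) (Fin 2) F) : act 1 1 M = M := by
  simp [act]

theorem act_mul (g h : SpecialLinearGroup (Fin 2) F) (e f : ℤˣ) (M : Matrix (Fin 2) (Fin 2) F) :
    act (g * h) (e * f) M = act g e (act h f M) := by
  simp [act, smul_smul, Matrix.mul_assoc, Matrix.transpose_mul, mul_comm]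

theorem act_add (g : SpecialLinearGroup (Fin 2) F) (e : ℤˣ) (M N : Matrix (Fin 2) (Fin 2) F) :
    act g e (M + N) = act g e M + act g e N := by
  simp [act, Matrix.mul_add, Matrix.add_mul]

/-- The module. -/
abbrev Mod (F : Type) := Multiplicative (Matrix (Fin 2) (Fin 2) F)

/-- The action as automorphisms. -/
noncomputable def aut : SpecialLinearGroup (Fin 2) F × ℤˣ →* MulAut (Mod F) where
  toFun x :=
    { toFun := fun M => Multiplicative.ofAdd (act x.1 x.2 M.toAdd)
      invFun := fun M => Multiplicative.ofAdd (act x.1⁻¹ x.2⁻¹ M.toAdd)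
      left_inv := fun M => by simp [← act_mul, act_one]
      right_inv := fun M => by simp [← act_mul, act_one]
      map_mul' := fun M N => by simp [act_add, ofAdd_add] }
  map_one' := by ext M; simp [act_one]
  map_mul' x y := by ext M; simp [act_mul]

theorem aut_apply (g : SpecialLinearGroup (Fin 2) F) (e : ℤˣ) (M : Matrix (Fin 2) (Fin 2) F) :
    aut (g, e) (Multiplicative.ofAdd M) = Multiplicative.ofAdd (act g e M) := rfl

/-- A fixed nonzero vector forces a small projective order. -/
theorem tr_cube_of_fixed {g : SpecialLinearGroup (Fin 2) F} {M : Matrix (Fin 2) (Fin 2) F}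
    (h : act g 1 M = M) (hM : M ≠ 0) : tr g ^ 3 = tr g := by
  by_contra hne
  have h1 : g.1 * M * (tw F g).1.transpose = M := by simpa [act] using h
  set H := (tw F g).1.transpose
  set Gi := (g⁻¹).1
  have hGi : Gi * g.1 = 1 := by
    show (g⁻¹).1 * g.1 = 1
    rw [show (g⁻¹).1 * g.1 = (g⁻¹ * g).1 from (Matrix.SpecialLinearGroup.coe_mul _ _).symm, inv_mul_cancel]
    rfl
  have h2 : M * H = Gi * M := by
    calc M * H = (Gi * g.1) * (M * H) := by rw [hGi, Matrix.one_mul]
      _ = Gi * (g.1 * M * H) := by simp [Matrix.mul_assoc]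
      _ = Gi * M := by rw [h1]
  have hH : H * H = tr g ^ 3 • H - 1 := by
    have := sq_eq (tw F g)
    rw [tr_tw] at this
    have h' := congrArg Matrix.transpose this
    rwa [Matrix.transpose_mul, Matrix.transpose_sub, Matrix.transpose_smul, Matrix.transpose_one] at h'
  have hG : Gi * Gi = tr g • Gi - 1 := by
    have := sq_eq g⁻¹
    rwa [tr_inv] at this
  have h3 : tr g ^ 3 • (Gi * M) = tr g • (Gi * M) := by
    have e1 : M * (H * H) = (Gi * Gi) * M := by
      rw [← Matrix.mul_assoc, h2, Matrix.mul_assoc, h2, Matrix.mul_assoc]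
    rw [hH, hG, Matrix.mul_sub, Matrix.sub_mul, Matrix.mul_smul, Matrix.smul_mul, h2, Matrix.mul_one,
      Matrix.one_mul] at e1
    exact sub_left_injective e1
  rw [← sub_eq_zero, ← sub_smul, smul_eq_zero, sub_eq_zero] at h3
  refine hM ?_
  have h4 := h3.resolve_left hne
  calc M = (g.1 * Gi) * M := by
        rw [mul_eq_one_comm.1 hGi, Matrix.one_mul]
    _ = g.1 * (Gi * M) := Matrix.mul_assoc _ _ _
    _ = 0 := by rw [h4, Matrix.mul_zero]

theorem two_eq_neg_one : (2 : F) = -1 := by
  have h3 : ((3 : ℕ) : F) = 0 := CharP.cast_eq_zero F 3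
  push_cast at h3
  linear_combination h3

theorem proj_pow_six {g : SpecialLinearGroup (Fin 2) F} (h : tr g ^ 3 = tr g) :
    proj g ^ 2 = 1 ∨ proj g ^ 3 = 1 := by
  have : tr g * (tr g - 1) * (tr g + 1) = 0 := by linear_combination h
  rcases mul_eq_zero.1 this with h' | h'
  · rcases mul_eq_zero.1 h' with h'' | h''
    · left
      rw [← map_pow, pow_two, sq_eq_neg_one_of_tr_zero h'', proj_eq_one_iff]
      exact Or.inr rfl
    · exact Or.inr (proj_pow_char 3 (Or.inr (by rw [two_eq_neg_one, neg_neg]; exact sub_eq_zero.1 h'')))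
  · exact Or.inr (proj_pow_char 3 (Or.inl (by rw [two_eq_neg_one]; linear_combination h')))

theorem aut_eq_one_iff {g : SpecialLinearGroup (Fin 2) F} {e : ℤˣ} :
    aut (g, e) = 1 ↔ proj g = 1 ∧ e = 1 := by
  have key : ∀ e : ℤˣ, ((e : ℤ) : F) = 1 → e = 1 := by
    intro e he
    rcases Int.units_eq_one_or e with rfl | rfl
    · rfl
    · exfalso
      simp at he
      have h0 : (2 : F) = 0 := by linear_combination -he
      rw [two_eq_neg_one] at h0
      exact one_ne_zero (neg_eq_zero.1 h0)
  constructor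
  · intro h
    have hM : ∀ M, act g e M = M := fun M => by
      have := congrArg (fun f : MulAut (Mod F) => (f (Multiplicative.ofAdd M)).toAdd) h
      simpa [aut_apply] using this
    set c := ((e : ℤ) : F) with hc
    have hc2 : c * c = 1 := by
      rw [hc]; rcases Int.units_eq_one_or e with rfl | rfl <;> simp
    set H := (tw F g).1.transpose
    have hgH : c • (g.1 * H) = 1 := by simpa [act, hc] using hM 1
    have hgH' : g.1 * H = c • 1 := by rw [← hgH, smul_smul, hc2, one_smul]
    have hHg : H * g.1 = c • 1 := by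
      have h1 : g.1 * (c • H) = 1 := by rw [Matrix.mul_smul, hgH]
      have h2 := mul_eq_one_comm.1 h1
      rw [Matrix.smul_mul] at h2
      rw [← h2, smul_smul, hc2, one_smul]
    have hcomm : ∀ M, g.1 * M = M * g.1 := by
      intro M
      have h1 : c • (g.1 * M * H) = M := hM M
      calc g.1 * M = c • c • (g.1 * M) := by rw [smul_smul, hc2, one_smul]
        _ = c • ((g.1 * M) * (H * g.1)) := by rw [hHg, Matrix.mul_smul, Matrix.mul_one]
        _ = (c • (g.1 * M * H)) * g.1 := by rw [Matrix.smul_mul, Matrix.mul_assoc (g.1 * M)]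
        _ = M * g.1 := by rw [h1]
    have hg : proj g = 1 := by
      rw [proj_eq_one_iff]
      refine (mem_center_iff g).1 (Subgroup.mem_center_iff.2 fun k => Subtype.ext ?_)
      exact (hcomm k.1).symm
    refine ⟨hg, key e ?_⟩
    have hH : g.1 * H = 1 := by
      rcases proj_eq_one_iff.1 hg with rfl | rfl
      · simp [H]
      · simp [H, tw, Matrix.transpose_neg]
        ext i j; fin_cases i <;> fin_cases j <;> simp [frobenius_def] <;> ring
    rw [hH] at hgH'
    have := congrFun (congrFun hgH' 0) 0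
    simpa using this.symm
  · rintro ⟨hg, rfl⟩
    rcases proj_eq_one_iff.1 hg with rfl | rfl
    · exact map_one aut
    · refine MulEquiv.ext fun M => ?_
      show Multiplicative.ofAdd (act (-1) 1 M.toAdd) = M
      have : act (-1 : SpecialLinearGroup (Fin 2) F) 1 M.toAdd = M.toAdd := by
        ext i j; fin_cases i <;> fin_cases j <;>
          simp [act, tw, Matrix.mul_apply, Fin.sum_univ_two, frobenius_def] <;> ring
      rw [this]; rfl

theorem aut_pow_eq_one_iff {g : SpecialLinearGroup (Fin 2) F} {e : ℤˣ} {k : ℕ} :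
    aut (g, e) ^ k = 1 ↔ proj g ^ k = 1 ∧ e ^ k = 1 := by
  rw [← map_pow, Prod.pow_mk, aut_eq_one_iff, map_pow]

end CfsgLib.TwistTensor
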